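import Cfsg.Agent.Balance.ExtendedLayer
import Cfsg.Agent.Constrained.Basic
import Cfsg.Agent.Eq.Def_Solvable
import Mathlib.GroupTheory.SemidirectProduct

/-!
A faithful representation over the field with two elements seen inside the semidirect product.
-/

set_option autoImplicit false
set_option linter.style.haveILetI false

namespace CfsgLib.SEModuleBound

open Cfsg Module

universe u v

variable {G : Type u} [Group G] {V : Type v} [AddCommGroup V] [Module (ZMod 2) V]

/-- The automorphisms of the underlying group given by a representation. -/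
noncomputable def toMulAut (ρ : G →* Module.End (ZMod 2) V) : G →* MulAut (Multiplicative V) where
  toFun g := AddEquiv.toMultiplicative
    { toFun := ρ g
      invFun := ρ g⁻¹
      left_inv := fun v => by rw [← Module.End.mul_apply, ← map_mul, inv_mul_cancel, map_one]; rfl
      right_inv := fun v => by rw [← Module.End.mul_apply, ← map_mul, mul_inv_cancel, map_one]; rfl
      map_add' := map_add (ρ g) }
  map_one' := by
    refine MulEquiv.ext fun v => ?_
    show Multiplicative.ofAdd (ρ 1 v.toAdd) = v
    rw [map_one]; rfl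
  map_mul' g h := by
    refine MulEquiv.ext fun v => ?_
    show Multiplicative.ofAdd (ρ (g * h) v.toAdd) = Multiplicative.ofAdd (ρ g (ρ h v.toAdd))
    rw [map_mul]; rfl

theorem toMulAut_apply (ρ : G →* Module.End (ZMod 2) V) (g : G) (v : V) :
    toMulAut ρ g (Multiplicative.ofAdd v) = Multiplicative.ofAdd (ρ g v) := rfl

theorem exists_ambient [Finite G] [FiniteDimensional (ZMod 2) V] (ρ : G →* Module.End (ZMod 2) V)
    (hρ : Function.Injective ρ) (K : Subgroup G) :
    ∃ (W : Type (max u v)) (_ : Group W) (_ : Finite W) (V' H' : Subgroup W) (f : K ≃* H'),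
      V'.Normal ∧ IsElementaryAbelian 2 V' ∧ H' ⊓ Subgroup.centralizer (V' : Set W) = ⊥ ∧
      Nat.card V' = 2 ^ finrank (ZMod 2) V ∧
      ∀ s : K, (V' ⊓ Subgroup.centralizer ({((f s : H') : W)} : Set W)).relIndex V' =
        2 ^ finrank (ZMod 2) (LinearMap.range (ρ (s : G) - 1)) := by
  classical
  haveI : Finite V := Module.finite_of_finite (ZMod 2)
  set φ := toMulAut ρ with hφdef
  let W := Multiplicative V ⋊[φ] G
  haveI : Finite W := Finite.of_equiv (Multiplicative V × G) SemidirectProduct.equivProd.symm
  set V' : Subgroup W := (SemidirectProduct.inl : Multiplicative V →* W).range with hV'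
  set H' : Subgroup W := K.map (SemidirectProduct.inr : G →* W) with hH'
  let f : K ≃* H' := K.equivMapOfInjective _ SemidirectProduct.inr_injective
  have hN : V'.Normal := by
    have h : V' = (SemidirectProduct.rightHom : W →* G).ker :=
      SemidirectProduct.range_inl_eq_ker_rightHom
    rw [h]
    infer_instance
  have hfix : ∀ (g : G) (v : Multiplicative V),
      ((SemidirectProduct.inl v : W) * SemidirectProduct.inr g =
        SemidirectProduct.inr g * SemidirectProduct.inl v) ↔ φ g v = v := by
    intro g v
    constructor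
    · intro h
      refine SemidirectProduct.inl_injective (φ := φ) ?_
      rw [SemidirectProduct.inl_aut, map_inv, ← h, mul_inv_cancel_right]
    · intro h
      have h2 := SemidirectProduct.inl_aut (φ := φ) g v
      rw [h, map_inv] at h2
      calc (SemidirectProduct.inl v : W) * SemidirectProduct.inr g
          = SemidirectProduct.inr g * SemidirectProduct.inl v * (SemidirectProduct.inr g)⁻¹ *
              SemidirectProduct.inr g := by rw [← h2]
        _ = _ := inv_mul_cancel_right _ _
  have hcardV : Nat.card V' = 2 ^ finrank (ZMod 2) V := by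
    rw [hV', ← Nat.card_congr (MonoidHom.ofInjective SemidirectProduct.inl_injective).toEquiv,
      Nat.card_congr Multiplicative.toAdd, Module.natCard_eq_pow_finrank (K := ZMod 2), Nat.card_zmod]
  refine ⟨W, inferInstance, inferInstance, V', H', f, hN, ⟨⟨⟨?_⟩⟩, ?_⟩, ?_, hcardV, fun s => ?_⟩
  · rintro ⟨_, a, rfl⟩ ⟨_, b, rfl⟩
    exact Subtype.ext (by simp [← map_mul, mul_comm])
  · rintro _ ⟨a, rfl⟩
    rw [← map_pow, pow_two, show a * a = 1 from Multiplicative.toAdd.injective
      (show a.toAdd + a.toAdd = 0 by rw [← two_nsmul, ← Nat.cast_smul_eq_nsmul (ZMod 2),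
        show ((2 : ℕ) : ZMod 2) = 0 from rfl, zero_smul]), map_one]
  · rw [Subgroup.eq_bot_iff_forall]
    rintro _ ⟨⟨g, hg, rfl⟩, hC⟩
    have h1 : ρ g = ρ 1 := by
      rw [map_one]
      refine LinearMap.ext fun v => ?_
      have h := (hfix g (Multiplicative.ofAdd v)).1
        (Subgroup.mem_centralizer_iff.1 hC _ ⟨_, rfl⟩)
      rw [hφdef, toMulAut_apply] at h
      exact Multiplicative.ofAdd.injective h
    rw [hρ h1, map_one]
  · set N := ρ (s : G) - 1 with hNdef
    set C := V' ⊓ Subgroup.centralizer ({((f s : H') : W)} : Set W) with hC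
    have hcardC : Nat.card C = 2 ^ finrank (ZMod 2) (LinearMap.ker N) := by
      have hmem : ∀ v : V, (SemidirectProduct.inl (Multiplicative.ofAdd v) : W) ∈ C ↔
          v ∈ LinearMap.ker N := by
        intro v
        rw [hC, Subgroup.mem_inf, and_iff_right (show _ ∈ V' from ⟨_, rfl⟩),
          Subgroup.mem_centralizer_singleton_iff, show ((f s : H') : W) = SemidirectProduct.inr (s : G) from rfl,
          hfix, hφdef, toMulAut_apply, LinearMap.mem_ker, hNdef, LinearMap.sub_apply,
          Module.End.one_apply, sub_eq_zero]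
        exact Multiplicative.ofAdd.apply_eq_iff_eq
      have e : LinearMap.ker N ≃ C := Equiv.ofBijective
        (fun v => (⟨_, (hmem v).2 v.2⟩ : C))
        ⟨fun a b h => Subtype.ext (Multiplicative.ofAdd.injective
            (SemidirectProduct.inl_injective (congrArg Subtype.val h))),
          fun ⟨x, hx⟩ => by
            obtain ⟨v, rfl⟩ := hx.1
            exact ⟨⟨v.toAdd, (hmem v.toAdd).1 (by simpa using hx)⟩, Subtype.ext (by simp)⟩⟩
      rw [← Nat.card_congr e, Module.natCard_eq_pow_finrank (K := ZMod 2), Nat.card_zmod]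
    have h := Subgroup.card_mul_index (C.subgroupOf V')
    rw [Nat.card_congr (Subgroup.subgroupOfEquivOfLe (inf_le_left : C ≤ V')).toEquiv, hcardC,
      ← Subgroup.relIndex, hcardV, ← LinearMap.finrank_range_add_finrank_ker N, pow_add,
      mul_comm (2 ^ finrank (ZMod 2) (LinearMap.range N))] at h
    exact Nat.eq_of_mul_eq_mul_left (pow_pos two_pos _) h

theorem exists_quotient_equiv {W : Type*} [Group W] {K : Subgroup G} {H' : Subgroup W}
    (f : K ≃* H') {X : Type*} [Group X] (e : K ⧸ pPrimeCore 2 K ≃* X) :
    Nonempty (H' ⧸ pPrimeCore 2 H' ≃* X) :=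
  ⟨(QuotientGroup.congr (pPrimeCore 2 K) (pPrimeCore 2 H') f (Balance.pPrimeCore_map f 2)).symm.trans e⟩

end CfsgLib.SEModuleBound
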